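import Cfsg.Agent.H4.Coset.EvenGen

/-!
Field automorphisms of prime order of `PΩ⁻_{2m+2}(q)`.
-/

set_option autoImplicit false

namespace Cfsg.Agent.H4

open QuadraticMap hiding sq
open Module
open scoped Matrix
open Cfsg.Agent.H5 (orth refl dick spin sqc)

variable {F : Type*} [Field F] [Fintype F] {m : ℕ} {a b : F}

theorem inndiag_minus_eq (hm : 3 ≤ m)
    (hab : ∀ z₁ z₂ : F, z₁ ^ 2 + a * z₁ * z₂ + b * z₂ ^ 2 = 0 → z₁ = 0 ∧ z₂ = 0) :
    Cfsg.inndiagPOmegaMinus m F a b =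
      properImage (coe_qMinus m a b) (evenForm_qMinus (by omega) (disc_ne_zero hab)) := by
  set hE := evenForm_qMinus (F := F) (m := m) (by omega) (disc_ne_zero hab)
  haveI := hE.nontrivial
  refine le_antisymm ((Subgroup.closure_le _).2 ?_) ?_
  · rintro β ⟨M, ⟨c, hc⟩, hM, hβ⟩
    obtain ⟨g, hg, hgs⟩ := exists_sim_of_pair (qMinus m F a b) (coe_qMinus m a b) (M := M)
      (σ := RingEquiv.refl F) ⟨c, hc⟩
    exact ⟨g, (mem_properSim hE (g := ⟨g, hgs⟩)).2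
      ((preservesMinus_iff_proper (by omega) hab ⟨g, hgs⟩ _ hg).1 hM),
      ((induced_iff _ (coe_qMinus m a b) g M _ hg β).1 hβ).symm⟩
  · rintro _ ⟨g, hg, rfl⟩
    refine Subgroup.subset_closure ?_
    set M := semiMatrix (simEquiv g) (RingEquiv.refl F) hg.1
    have hMv : ∀ v, (M : Matrix _ _ F) *ᵥ v = (g : Equiv.Perm _) v := fun v =>
      semiMatrix_mulVec (simEquiv g) (RingEquiv.refl F) hg.1 v
    exact ⟨M, ⟨Units.mk0 _ (isSemiSim g).ne_zero, fun v => by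
        rw [Units.val_mk0, hMv, ← coe_qMinus]; exact linSim_app _ ⟨g, hg.1⟩ v⟩,
      (preservesMinus_iff_proper (by omega) hab ⟨g, hg.1⟩ _ hMv).2 hg.2,
      (induced_iff _ (coe_qMinus m a b) g M _ hMv _).2 rfl⟩

theorem inndiag_minus_normal (hm : 3 ≤ m)
    (hab : ∀ z₁ z₂ : F, z₁ ^ 2 + a * z₁ * z₂ + b * z₂ ^ 2 = 0 → z₁ = 0 ∧ z₂ = 0) :
    (Cfsg.inndiagPOmegaMinus m F a b).Normal := by
  rw [inndiag_minus_eq hm hab]
  exact properImage_normal _ (autHyp_qMinus hab hm) _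

/-- An isomorphism of two minus groups maps one inner-diagonal group to the other. -/
theorem map_inndiag_minus (hm : 3 ≤ m) {a' b' : F}
    (hab : ∀ z₁ z₂ : F, z₁ ^ 2 + a * z₁ * z₂ + b * z₂ ^ 2 = 0 → z₁ = 0 ∧ z₂ = 0)
    (hab' : ∀ z₁ z₂ : F, z₁ ^ 2 + a' * z₁ * z₂ + b' * z₂ ^ 2 = 0 → z₁ = 0 ∧ z₂ = 0)
    (ψ : Cfsg.POmega F (Cfsg.quadFormMinus m F a b) ≃* Cfsg.POmega F (Cfsg.quadFormMinus m F a' b')) :
    (Cfsg.inndiagPOmegaMinus m F a b).map (MulAut.congr ψ).toMonoidHom =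
      Cfsg.inndiagPOmegaMinus m F a' b' := by
  have hr : finrank F ((Fin m ⊕ Fin m) ⊕ Fin 2 → F) = 2 * (m + 1) := by simp; ring
  obtain ⟨j, hj⟩ := isom_even_of_iff (qMinus_nondegenerate' hab m) (qMinus_nondegenerate' hab' m) hr hr
    (iff_of_false (fun ⟨W, hW, hk⟩ => qMinus_no_singular hab m W hW hk)
      (fun ⟨W, hW, hk⟩ => qMinus_no_singular hab' m W hW hk))
  haveI : Finite ((Fin m ⊕ Fin m) ⊕ Fin 2 → F) := Pi.finite
  obtain ⟨ψ₀, hψ₀⟩ := exists_pomega_iso j hj (coe_qMinus m a b) (coe_qMinus m a' b')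
  set E := evenForm_qMinus (F := F) (m := m) (by omega) (disc_ne_zero hab)
  set E' := evenForm_qMinus (F := F) (m := m) (by omega) (disc_ne_zero hab')
  have h0 : (Cfsg.inndiagPOmegaMinus m F a b).map (MulAut.congr ψ₀).toMonoidHom =
      Cfsg.inndiagPOmegaMinus m F a' b' := by
    rw [inndiag_minus_eq hm hab, inndiag_minus_eq hm hab', properImage, properImage,
      ← map_properSim_transport j hj E E', Subgroup.map_map, Subgroup.map_map]
    congr 1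
    exact MonoidHom.ext fun g => hψ₀ g
  haveI := inndiag_minus_normal hm hab
  set β : MulAut (Cfsg.POmega F (Cfsg.quadFormMinus m F a b)) := ψ.trans ψ₀.symm
  have h1 : (MulAut.congr ψ).toMonoidHom =
      (MulAut.congr ψ₀).toMonoidHom.comp (MulAut.conj β).toMonoidHom := by
    refine MonoidHom.ext fun x => MulEquiv.ext fun y => ?_
    change ψ (x (ψ.symm y)) = ψ₀ (β (x (β.symm (ψ₀.symm y))))
    simp [β]
  rw [h1, ← Subgroup.map_map, show (Cfsg.inndiagPOmegaMinus m F a b).map (MulAut.conj β).toMonoidHom =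
    Cfsg.inndiagPOmegaMinus m F a b from Subgroup.Normal.map_conj_eq _ β, h0]

/-- A field automorphism of prime order is carried to a standard one. -/
theorem exists_minus_std (hm : 3 ≤ m)
    {x : MulAut (Cfsg.POmega F (Cfsg.quadFormMinus m F a b))}
    (hx : Cfsg.IsFieldAutClassPOmegaMinus m x) {r : ℕ} (hr : r.Prime) (hxr : orderOf x = r) :
    ∃ (a' b' : F) (ψ : Cfsg.POmega F (Cfsg.quadFormMinus m F a b) ≃*
        Cfsg.POmega F (Cfsg.quadFormMinus m F a' b')) (σ : F ≃+* F)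
      (hσQ : ∀ v, qMinus m F a' b' (coordSigma _ σ v) = σ (qMinus m F a' b' v)),
      (∀ z₁ z₂ : F, z₁ ^ 2 + a' * z₁ * z₂ + b' * z₂ ^ 2 = 0 → z₁ = 0 ∧ z₂ = 0) ∧
      σ a' = a' ∧ σ b' = b' ∧ orderOf σ = r ∧ Odd r ∧
      MulAut.congr ψ x = indHom (qMinus m F a' b') (coe_qMinus m a' b') (stdSigma _ hσQ) := by
  obtain ⟨a', b', ψ, σ, hab', -, ha, hb, hφ⟩ := hx
  have hσQ : ∀ v, qMinus m F a' b' (coordSigma _ σ v) = σ (qMinus m F a' b' v) := fun v => by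
    simp [coe_qMinus, Cfsg.quadFormMinus, coordSigma_apply, map_sum, ha, hb]
  have h1 : MulAut.congr ψ x = indHom (qMinus m F a' b') (coe_qMinus m a' b') (stdSigma _ hσQ) :=
    (fieldAutOf_iff _ (coe_qMinus m a' b') hσQ _).1 hφ
  have hord : orderOf σ = r := by
    rw [← orderOf_stdSigma _ (coe_qMinus m a' b') (autHyp_qMinus hab' hm) hσQ, ← h1,
      MulEquiv.orderOf_eq, hxr]
  refine ⟨a', b', ψ, σ, hσQ, hab', ha, hb, hord, ?_, h1⟩
  rcases hr.eq_two_or_odd' with h2 | h2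
  · exfalso
    obtain ⟨K, hK, hcard⟩ := exists_fixed_embedding σ
    haveI := Fintype.ofFinite K
    rw [hord, h2, Nat.card_eq_fintype_card] at hcard
    obtain ⟨a₀, ha₀⟩ := (hK a').1 ha
    obtain ⟨b₀, hb₀⟩ := (hK b').1 hb
    have hab₀ : ∀ z₁ z₂ : K, z₁ ^ 2 + a₀ * z₁ * z₂ + b₀ * z₂ ^ 2 = 0 → z₁ = 0 ∧ z₂ = 0 := by
      intro z₁ z₂ h
      have h' := congrArg K.subtype h
      simp only [map_add, map_mul, map_pow, map_zero, ha₀, hb₀] at h'
      obtain ⟨h3, h4⟩ := hab' _ _ h'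
      exact ⟨K.subtype.injective (h3.trans (map_zero _).symm), K.subtype.injective (h4.trans (map_zero _).symm)⟩
    obtain ⟨θ, -, hθ1, hθ2⟩ := H67.exists_quadratic_root (K := F) rfl hcard K.subtype a₀ b₀ hab₀
    rw [ha₀] at hθ1
    rw [hb₀] at hθ2
    exact one_ne_zero (hab' (-θ) 1 (by linear_combination θ * hθ1 - hθ2)).2
  · exact h2

/-- The coset criterion. -/
theorem minus_coset_conjugacy (hm : 3 ≤ m)
    (hab : ∀ z₁ z₂ : F, z₁ ^ 2 + a * z₁ * z₂ + b * z₂ ^ 2 = 0 → z₁ = 0 ∧ z₂ = 0)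
    {x δ : MulAut (Cfsg.POmega F (Cfsg.quadFormMinus m F a b))}
    (hx : Cfsg.IsFieldAutClassPOmegaMinus m x) {r : ℕ} (hr : r.Prime) (hxr : orderOf x = r)
    (hδ : δ ∈ Cfsg.inndiagPOmegaMinus m F a b) :
    orderOf (δ * x) = r ↔ Cfsg.IsConjUnder (Cfsg.inndiagPOmegaMinus m F a b) x (δ * x) := by
  constructor
  · intro ho
    obtain ⟨a', b', ψ, σ, hσQ, hab', ha, hb, hord, -, h1⟩ := exists_minus_std hm hx hr hxr
    set E := MulAut.congr ψ
    have hmap := map_inndiag_minus hm hab hab' ψ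
    rw [← isConjUnder_congr_iff E, hmap, map_mul, h1, inndiag_minus_eq hm hab']
    have hδ' : E δ ∈ Cfsg.inndiagPOmegaMinus m F a' b' := hmap ▸ ⟨δ, hδ, rfl⟩
    rw [inndiag_minus_eq hm hab'] at hδ'
    obtain ⟨L, hL, hLe⟩ := hδ'
    have hh := autHyp_qMinus hab' hm
    have hE := evenForm_qMinus (F := F) (m := m) (by omega) (disc_ne_zero hab')
    obtain ⟨K, hK, -⟩ := exists_fixed_embedding σ
    haveI := Fintype.ofFinite K
    set g := L * stdSigma (qMinus m F a' b') hσQ with hg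
    have hpow : indHom (qMinus m F a' b') (coe_qMinus m a' b') g ^ r = 1 := by
      rw [hg, map_mul, hLe, ← h1, ← map_mul, ← map_pow, ← ho, pow_orderOf_eq_one, map_one]
    rw [← map_pow, indHom_eq_one_iff _ _ hh] at hpow
    obtain ⟨lam, hlam⟩ := hpow
    have hgσ : ∀ (t : F) (v : (Fin m ⊕ Fin m) ⊕ Fin 2 → F),
        (g : Equiv.Perm ((Fin m ⊕ Fin m) ⊕ Fin 2 → F)) (t • v) =
          σ t • (g : Equiv.Perm ((Fin m ⊕ Fin m) ⊕ Fin 2 → F)) v := fun t v => by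
      simp only [hg, Subgroup.coe_mul, Equiv.Perm.mul_apply, stdSigma_apply, coordSigma_smul, hL.1 _ _]
    obtain ⟨d, h, t, P', -, ht, hP'nd, hgh, hP⟩ := twist_descent K.subtype hord hK hh.nondeg
      hE.exists_ne g hgσ hlam
    obtain ⟨a₀, ha₀⟩ := (hK a').1 ha
    obtain ⟨b₀, hb₀⟩ := (hK b').1 hb
    subst ha₀ hb₀
    have hab₀ : ∀ z₁ z₂ : K, z₁ ^ 2 + a₀ * z₁ * z₂ + b₀ * z₂ ^ 2 = 0 → z₁ = 0 ∧ z₂ = 0 := by
      intro z₁ z₂ h
      have h' := congrArg K.subtype h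
      simp only [map_add, map_mul, map_pow, map_zero] at h'
      obtain ⟨h3, h4⟩ := hab' _ _ h'
      exact ⟨K.subtype.injective (h3.trans (map_zero _).symm), K.subtype.injective (h4.trans (map_zero _).symm)⟩
    have hEK := evenForm_qMinus (F := K) (m := m) (by omega) (disc_ne_zero hab₀)
    haveI := hEK.nontrivial
    have hQK := qMinus_base K.subtype m a₀ b₀
    have hr2 : finrank K ((Fin m ⊕ Fin m) ⊕ Fin 2 → K) = 2 * (m + 1) := by simp; ring
    have hno : ¬ ∃ W : Submodule K ((Fin m ⊕ Fin m) ⊕ Fin 2 → K),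
        (∀ w ∈ W, P' w = 0) ∧ finrank K W = m + 1 := by
      rintro ⟨W, hW, hWr⟩
      obtain ⟨g₀, hg₀⟩ := isom_qPlus_of_singular hP'nd hr2 W hW hWr
      obtain ⟨gF, hgF⟩ := exists_baseChange_equiv K.subtype g₀
      have hpl : ∀ x, qPlus (m + 1) F (baseVec K.subtype x) = K.subtype (qPlus (m + 1) K x) := fun x => by
        simp [coe_qPlus, Cfsg.quadFormPlus, baseVec, map_sum]
      have hval : ∀ v, qMinus m F (K.subtype a₀) (K.subtype b₀) (h v) = t * qPlus (m + 1) F (gF v) := fun v => by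
        have := qf_eq_of_baseVec K.subtype
          (Q := (qMinus m F (K.subtype a₀) (K.subtype b₀)).comp
            (h : ((Fin m ⊕ Fin m) ⊕ Fin 2 → F) →ₗ[F] ((Fin m ⊕ Fin m) ⊕ Fin 2 → F)))
          (Q' := t • (qPlus (m + 1) F).comp
            (gF : ((Fin m ⊕ Fin m) ⊕ Fin 2 → F) →ₗ[F] (Fin (m + 1) ⊕ Fin (m + 1) → F))) (fun x => by
            simp only [QuadraticMap.comp_apply, LinearEquiv.coe_coe, _root_.QuadraticMap.smul_apply,
              smul_eq_mul]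
            rw [hP, hgF, hpl, hg₀]) v
        simpa using this
      obtain ⟨W', hW', hWr'⟩ := qPlus_singular (F := F) (m + 1)
      refine qMinus_no_singular hab' m
        (W'.map ((gF.symm.trans h : (Fin (m + 1) ⊕ Fin (m + 1) → F) ≃ₗ[F] _) : _ →ₗ[F] _)) ?_
        (by rw [LinearEquiv.finrank_map_eq]; exact hWr')
      rintro _ ⟨w, hw, rfl⟩
      rw [LinearEquiv.coe_coe, LinearEquiv.trans_apply, hval, LinearEquiv.apply_symm_apply, hW' w hw,
        mul_zero]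
    obtain ⟨k, hk⟩ := isom_even_of_iff hP'nd hEK.nondeg hr2 hr2 (iff_of_false hno
      (fun ⟨W, hW, hWr⟩ => qMinus_no_singular hab₀ m W hW hWr))
    obtain ⟨β, hβ, hc⟩ := even_conj_of_isom (coe_qMinus m _ _) hh hE hEK hK hQK hσQ g h ht hgh hP k hk
    refine ⟨β, hβ, ?_⟩
    rw [← hc, hg, map_mul, hLe]
  · rintro ⟨h, -, he⟩
    rw [he, ← MulAut.conj_apply, MulEquiv.orderOf_eq, hxr]

/-- The three assertions about a field automorphism of prime order. -/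
theorem minus_fieldAut_prime_order {p f : ℕ} [Fact p.Prime] (hF : Fintype.card F = p ^ f) (hm : 3 ≤ m)
    (hab : ∀ z₁ z₂ : F, z₁ ^ 2 + a * z₁ * z₂ + b * z₂ ^ 2 = 0 → z₁ = 0 ∧ z₂ = 0)
    {x : MulAut (Cfsg.POmega F (Cfsg.quadFormMinus m F a b))}
    (hx : Cfsg.IsFieldAutClassPOmegaMinus m x) {r : ℕ} (hr : r.Prime) (hxr : orderOf x = r)
    (F₀ : Type*) [Field F₀] [Fintype F₀] (hF₀ : Fintype.card F₀ = p ^ (f / r)) :
    Odd r ∧ r ∣ f ∧ (∃ a₀ b₀ : F₀, (∀ z₁ z₂ : F₀, z₁ ^ 2 + a₀ * z₁ * z₂ + b₀ * z₂ ^ 2 = 0 → z₁ = 0 ∧ z₂ = 0) ∧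
      Nonempty (↥(Cfsg.inndiagPOmegaMinus m F a b ⊓ Subgroup.centralizer {x}) ≃*
        ↥(Cfsg.inndiagPOmegaMinus m F₀ a₀ b₀))) ∧
      Cfsg.splitClassCount (Cfsg.inndiagPOmegaMinus m F a b)
        (Cfsg.Inn (Cfsg.POmega F (Cfsg.quadFormMinus m F a b))) x = 1 := by
  obtain ⟨a', b', ψ, σ, hσQ, hab', ha, hb, hord, hodd, h1⟩ := exists_minus_std hm hx hr hxr
  obtain ⟨hdiv, e, he, -⟩ := exists_embedding_of_card hF σ hord hr F₀ hF₀
  obtain ⟨a₀, ha₀⟩ := (he a').1 ha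
  obtain ⟨b₀, hb₀⟩ := (he b').1 hb
  subst ha₀ hb₀
  have hab₀ : ∀ z₁ z₂ : F₀, z₁ ^ 2 + a₀ * z₁ * z₂ + b₀ * z₂ ^ 2 = 0 → z₁ = 0 ∧ z₂ = 0 := by
    intro z₁ z₂ h
    have h' := congrArg e h
    simp only [map_add, map_mul, map_pow, map_zero] at h'
    obtain ⟨h3, h4⟩ := hab' _ _ h'
    exact ⟨e.injective (h3.trans (map_zero e).symm), e.injective (h4.trans (map_zero e).symm)⟩
  have hh := autHyp_qMinus hab' hm
  have hhK := autHyp_qMinus hab₀ hm
  have hE := evenForm_qMinus (F := F) (m := m) (by omega) (disc_ne_zero hab')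
  have hEK := evenForm_qMinus (F := F₀) (m := m) (by omega) (disc_ne_zero hab₀)
  haveI := hEK.nontrivial
  have hQK := qMinus_base e m a₀ b₀
  set E := MulAut.congr ψ
  have hmap := map_inndiag_minus hm hab hab' ψ
  refine ⟨hodd, hdiv, ⟨a₀, b₀, hab₀, ?_⟩, ?_⟩
  · obtain ⟨E₂⟩ := even_centralizer (coe_qMinus m _ _) hh hE hEK he hQK hσQ (coe_qMinus m a₀ b₀) hhK
    refine ⟨((Subgroup.equivMapOfInjective _ E.toMonoidHom E.injective).trans
      (MulEquiv.subgroupCongr ?_)).trans (E₂.trans (MulEquiv.subgroupCongr (inndiag_minus_eq hm hab₀).symm))⟩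
    rw [Subgroup.map_inf _ _ _ E.injective, hmap, inndiag_minus_eq hm hab', ← h1]
    congr 1
    ext y
    simp only [Subgroup.mem_map, MulEquiv.coe_toMonoidHom, Subgroup.mem_centralizer_iff,
      Set.mem_singleton_iff, forall_eq]
    constructor
    · rintro ⟨z, hz, rfl⟩
      rw [← map_mul, hz, map_mul]
    · intro hy
      refine ⟨E.symm y, E.injective ?_, E.apply_symm_apply y⟩
      rw [map_mul, map_mul, E.apply_symm_apply, hy]
  · rw [← splitClassCount_congr E x, hmap, map_inn_congr ψ, h1, inndiag_minus_eq hm hab']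
    exact even_split_one (coe_qMinus m _ _) hh hE hEK he hQK hσQ (Or.inl (by rw [hord]; exact hodd))
      fun c hc => by rw [similMults_qMinus m hab₀]; exact hc

end Cfsg.Agent.H4
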