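import Cfsg.Agent.H4.Coset.LinSim
import Cfsg.Agent.H4.Coset.FieldFix
import Cfsg.Agent.H4.OutStruct

/-!
Field automorphisms of prime order of `Ω_{2m+1}(q)`: conjugacy in the coset, centralisers, splitting.
-/

set_option autoImplicit false

namespace Cfsg.Agent.H4

open QuadraticMap hiding sq
open Module
open scoped Matrix
open Cfsg.Agent.H5 (orth refl dick spin sqc orth_map orth_ext orth_mul_apply)

variable {F : Type*} [Field F] {m : ℕ}

theorem qOdd_rational (σ : F ≃+* F) (v : Unit ⊕ (Fin m ⊕ Fin m) → F) :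
    qOdd m F (coordSigma _ σ v) = σ (qOdd m F v) := by
  simp [coe_qOdd, Cfsg.quadFormOdd, coordSigma_apply, map_sum]

theorem qOdd_base {K : Type*} [Field K] (e : K →+* F) (x : Unit ⊕ (Fin m ⊕ Fin m) → K) :
    qOdd m F (baseVec e x) = e (qOdd m K x) := by
  simp [coe_qOdd, Cfsg.quadFormOdd, baseVec, map_sum]

variable [Fintype F]

theorem autHyp_qOdd' (h2 : (2 : F) ≠ 0) (hm : 3 ≤ m) : AutHyp (qOdd m F) := by
  have hodd : Odd (Fintype.card F) := Nat.odd_iff.2 (FiniteField.odd_card_of_char_ne_two fun h => h2 (by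
    haveI := ringChar.of_eq h; exact CharTwo.two_eq_zero))
  exact qOdd_eq_H5 (F := F) m ▸ autHyp_qOdd hodd hm

variable (F m) in
/-- The standard field automorphism. -/
noncomputable def oddStd (σ : F ≃+* F) : MulAut (Cfsg.POmega F (Cfsg.quadFormOdd m F)) :=
  indHom (qOdd m F) (coe_qOdd m) (stdSigma (qOdd m F) (qOdd_rational σ))

theorem inndiag_odd_eq (h2 : (2 : F) ≠ 0) (hm : 3 ≤ m) :
    Cfsg.inndiagPOmegaOdd m F = (linSim (qOdd m F)).map (indHom (qOdd m F) (coe_qOdd m)) := by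
  have hh := autHyp_qOdd' h2 hm
  haveI := hh.nontrivial
  refine le_antisymm ((Subgroup.closure_le _).2 ?_) ?_
  · rintro β ⟨M, ⟨c, hc⟩, hβ⟩
    obtain ⟨g, hg, hgs⟩ := exists_sim_of_pair (qOdd m F) (coe_qOdd m) (M := M) (σ := RingEquiv.refl F)
      ⟨c, hc⟩
    exact ⟨g, hgs, ((induced_iff _ (coe_qOdd m) g M _ hg β).1 hβ).symm⟩
  · rintro _ ⟨g, hg, rfl⟩
    refine Subgroup.subset_closure ?_
    set M := semiMatrix (simEquiv g) (RingEquiv.refl F) hg with hM
    have hMv : ∀ v, (M : Matrix _ _ F) *ᵥ v = (g : Equiv.Perm _) v := fun v =>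
      semiMatrix_mulVec (simEquiv g) (RingEquiv.refl F) hg v
    exact ⟨M, ⟨Units.mk0 _ (isSemiSim g).ne_zero, fun v => by
        rw [Units.val_mk0, hMv, ← coe_qOdd]; exact linSim_app _ ⟨g, hg⟩ v⟩,
      (induced_iff _ (coe_qOdd m) g M _ hMv _).2 rfl⟩

theorem inndiag_odd_normal (h2 : (2 : F) ≠ 0) (hm : 3 ≤ m) :
    (Cfsg.inndiagPOmegaOdd m F).Normal := by
  rw [inndiag_odd_eq h2 hm]
  exact map_linSim_normal _ _ (autHyp_qOdd' h2 hm)

/-- A field automorphism of prime order is conjugate to a standard one. -/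
theorem exists_oddStd (h2 : (2 : F) ≠ 0) (hm : 3 ≤ m)
    {x : MulAut (Cfsg.POmega F (Cfsg.quadFormOdd m F))}
    (hx : Cfsg.IsFieldAutClassPOmega (Cfsg.quadFormOdd m F) x) :
    ∃ (α : MulAut (Cfsg.POmega F (Cfsg.quadFormOdd m F))) (σ : F ≃+* F),
      α * x * α⁻¹ = oddStd F m σ ∧ orderOf σ = orderOf x := by
  obtain ⟨α, φ, σ, -, hφ, hαx⟩ := hx
  rw [fieldAutOf_iff _ (coe_qOdd m) (qOdd_rational σ)] at hφ
  refine ⟨α, σ, hαx.trans hφ, ?_⟩
  rw [← orderOf_stdSigma _ (coe_qOdd m) (autHyp_qOdd' h2 hm) (qOdd_rational σ), ← hφ, ← hαx,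
    ← MulAut.conj_apply, MulEquiv.orderOf_eq]

/-- Lang's theorem in the coset of a field automorphism. -/
theorem odd_lang (h2 : (2 : F) ≠ 0) (hm : 3 ≤ m) {σ : F ≃+* F} {r : ℕ} (hσ : orderOf σ = r)
    (L : linSim (qOdd m F))
    (hr : (indHom (qOdd m F) (coe_qOdd m) L.1 * oddStd F m σ) ^ r = 1) :
    ∃ H : linSim (qOdd m F), indHom (qOdd m F) (coe_qOdd m) L.1 * oddStd F m σ =
      indHom (qOdd m F) (coe_qOdd m) H.1 * oddStd F m σ * (indHom (qOdd m F) (coe_qOdd m) H.1)⁻¹ := by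
  classical
  have hh := autHyp_qOdd' h2 hm
  obtain ⟨K, hK, -⟩ := exists_fixed_embedding σ
  haveI := Fintype.ofFinite K
  set g := L.1 * stdSigma (qOdd m F) (qOdd_rational σ) with hg
  have hgσ : ∀ (t : F) (v : Unit ⊕ (Fin m ⊕ Fin m) → F), (g : Equiv.Perm (Unit ⊕ (Fin m ⊕ Fin m) → F)) (t • v) =
      σ t • (g : Equiv.Perm (Unit ⊕ (Fin m ⊕ Fin m) → F)) v := fun t v => by
    simp only [hg, Subgroup.coe_mul, Equiv.Perm.mul_apply, stdSigma_apply, coordSigma_smul, L.2 _ _]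
  rw [oddStd, ← map_mul, ← map_pow, indHom_eq_one_iff _ _ hh] at hr
  obtain ⟨lam, hlam⟩ := hr
  obtain ⟨v₁, hv₁⟩ := hh.exists_value_one
  obtain ⟨d, h, t, QK, -, ht, hQKnd, hgh, hQK⟩ := twist_descent K.subtype hσ hK hh.nondeg
    ⟨v₁, by rw [hv₁]; exact one_ne_zero⟩ g hgσ hlam
  obtain ⟨-, c, hc, k, hk⟩ := isom_std_odd hQKnd (m := m) (by
    rw [Module.finrank_fintype_fun_eq_card]; simp; ring)
  obtain ⟨kF, hkF⟩ := exists_baseChange_equiv K.subtype k
  have hQ : ∀ v, qOdd m F (h v) = t * K.subtype c * qOdd m F (kF v) := fun v => by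
    have := qf_eq_of_baseVec K.subtype
      (Q := (qOdd m F).comp (h : (Unit ⊕ (Fin m ⊕ Fin m) → F) →ₗ[F] _))
      (Q' := (t * K.subtype c) • (qOdd m F).comp (kF : (Unit ⊕ (Fin m ⊕ Fin m) → F) →ₗ[F] _)) (fun x => by
        simp only [QuadraticMap.comp_apply, LinearEquiv.coe_coe, _root_.QuadraticMap.smul_apply,
          smul_eq_mul]
        rw [hQK, hkF, qOdd_base, ← hk, map_mul, mul_assoc]) v
    simpa using this
  have hne : t * K.subtype c ≠ 0 := mul_ne_zero ht ((map_ne_zero K.subtype).2 hc)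
  let H : linSim (qOdd m F) := toLinSim (kF.symm.trans h) hne
    (fun v => by rw [LinearEquiv.trans_apply, hQ, LinearEquiv.apply_symm_apply])
  have hsym : ∀ v, kF.symm (coordSigma _ σ v) = coordSigma _ σ (kF.symm v) := fun v => by
    apply kF.injective
    rw [LinearEquiv.apply_symm_apply, baseChange_commute K.subtype hK kF hkF, LinearEquiv.apply_symm_apply]
  refine ⟨H, eq_mul_inv_of_mul_eq ?_⟩
  rw [oddStd, ← map_mul, ← map_mul, ← map_mul]
  refine indHom_eq_of_smul _ _ hh (d := d) fun v => ?_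
  simp only [← hg, Subgroup.coe_mul, Equiv.Perm.mul_apply, stdSigma_apply]
  change (g : Equiv.Perm _) (h (kF.symm v)) = d • h (kF.symm (coordSigma _ σ v))
  rw [hgh, hsym]

/-- The coset criterion. -/
theorem odd_coset_conjugacy (h2 : (2 : F) ≠ 0) (hm : 3 ≤ m)
    {x δ : MulAut (Cfsg.POmega F (Cfsg.quadFormOdd m F))}
    (hx : Cfsg.IsFieldAutClassPOmega (Cfsg.quadFormOdd m F) x) {r : ℕ} (hxr : orderOf x = r)
    (hδ : δ ∈ Cfsg.inndiagPOmegaOdd m F) :
    orderOf (δ * x) = r ↔ Cfsg.IsConjUnder (Cfsg.inndiagPOmegaOdd m F) x (δ * x) := by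
  constructor
  · intro ho
    haveI := inndiag_odd_normal h2 hm
    obtain ⟨α, σ, hα, hσ⟩ := exists_oddStd h2 hm hx
    have hδ' : α * δ * α⁻¹ ∈ Cfsg.inndiagPOmegaOdd m F :=
      (inferInstance : (Cfsg.inndiagPOmegaOdd m F).Normal).conj_mem δ hδ α
    rw [inndiag_odd_eq h2 hm] at hδ'
    obtain ⟨L, hL, hLα⟩ := hδ'
    have he : α * (δ * x) * α⁻¹ = indHom (qOdd m F) (coe_qOdd m) L * oddStd F m σ := by
      rw [hLα, ← hα]; group
    have hr : (indHom (qOdd m F) (coe_qOdd m) L * oddStd F m σ) ^ r = 1 := by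
      rw [← he, ← MulAut.conj_apply, ← map_pow, ← ho, pow_orderOf_eq_one, map_one]
    obtain ⟨H, hH⟩ := odd_lang h2 hm (hσ.trans hxr) ⟨L, hL⟩ hr
    rw [← isConjUnder_map_iff (a := α), hα, he]
    refine ⟨_, ?_, hH⟩
    rw [inndiag_odd_eq h2 hm]
    exact ⟨H.1, H.2, rfl⟩
  · rintro ⟨h, -, he⟩
    rw [he, ← MulAut.conj_apply, MulEquiv.orderOf_eq, hxr]

/-- A similarity is a scalar times a rotation. -/
theorem exists_orth_rep (h2 : (2 : F) ≠ 0) (hm : 3 ≤ m) (g : linSim (qOdd m F)) :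
    ∃ (k : orth (qOdd m F)) (s : F), dick k = 1 ∧
      ∀ v, (g.1 : Equiv.Perm _) v = s • (k : (Unit ⊕ (Fin m ⊕ Fin m) → F) ≃ₗ[F] _) v := by
  have hh := autHyp_qOdd' h2 hm
  haveI := hh.nontrivial
  have hc : simMult g.1 ∈ similMults (qOdd m F) :=
    ⟨(isSemiSim g.1).ne_zero, linSimEquiv g, linSim_app _ g⟩
  rw [similMults_qOdd h2] at hc
  obtain ⟨t, ht⟩ := hc
  let k₀ : orth (qOdd m F) := ⟨(linSimEquiv g).trans (LinearEquiv.smulOfUnit t⁻¹), fun v => by
    change qOdd m F ((t⁻¹ : Fˣ) • linSimEquiv g v) = _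
    rw [Units.smul_def, qf_smul, linSimEquiv_apply, linSim_app, ← ht, ← mul_assoc, ← mul_pow,
      Units.inv_mul, one_pow, one_mul]⟩
  have hk₀ : ∀ v, (g.1 : Equiv.Perm _) v =
      (t : F) • (k₀ : (Unit ⊕ (Fin m ⊕ Fin m) → F) ≃ₗ[F] _) v := fun v => by
    change _ = (t : F) • (((t⁻¹ : Fˣ) : F) • linSimEquiv g v)
    rw [smul_smul, Units.mul_inv, one_smul, linSimEquiv_apply]
  rcases Int.units_eq_one_or (dick k₀) with h | h
  · exact ⟨k₀, t, h, hk₀⟩
  · refine ⟨negOrth _ * k₀, -(t : F), ?_, fun v => ?_⟩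
    · have h1 := dick_negOrth hh.toFormHyp h2
      rw [hh.dick_hom, h]
      rcases Int.units_eq_one_or (dick (negOrth (qOdd m F))) with h3 | h3
      · rw [h3, Module.finrank_fintype_fun_eq_card] at h1
        simp at h1
        exact absurd (by linear_combination h1 : (2 : F) = 0) h2
      · rw [h3]; decide
    · rw [hk₀, orth_mul_apply, negOrth_apply, neg_smul_neg]

/-- When the class of a rotation is inner. -/
theorem rotation_mem_inn_iff (h2 : (2 : F) ≠ 0) (hm : 3 ≤ m) {k : orth (qOdd m F)} (hd : dick k = 1) :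
    indHom (qOdd m F) (coe_qOdd m) (orthToSim _ k) ∈
        Cfsg.Inn (Cfsg.POmega F (Cfsg.quadFormOdd m F)) ↔ spin (qOdd m F) k = 1 := by
  have hh := autHyp_qOdd' h2 hm
  rw [indHom_mem_inn_iff _ _ hh, ← outHom_eq_one_iff hh, outHom_orth_eq_one_iff hh,
    H5.mem_commutator_iff hh.nondeg hh.std, H5.mem_commutator_iff hh.nondeg hh.std]
  refine ⟨fun h => h.elim (fun h => h.2) fun h => ?_, fun h => Or.inl ⟨hd, h⟩⟩
  have h1 := dick_negOrth hh.toFormHyp h2
  rw [hh.dick_hom, hd, mul_one] at h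
  rw [h.1, Module.finrank_fintype_fun_eq_card] at h1
  simp at h1
  exact absurd (by linear_combination h1 : (2 : F) = 0) h2

variable {K : Type*} [Field K]

/-- The homomorphism from the similarities over the fixed field. -/
noncomputable def oddBase [Nontrivial (Unit ⊕ (Fin m ⊕ Fin m) → K)] (e : K →+* F) :
    linSim (qOdd m K) →* MulAut (Cfsg.POmega F (Cfsg.quadFormOdd m F)) :=
  (indHom (qOdd m F) (coe_qOdd m)).comp ((linSim (qOdd m F)).subtype.comp (baseSim (qOdd_base e)))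

theorem oddBase_range (h2 : (2 : F) ≠ 0) (hm : 3 ≤ m) [Nontrivial (Unit ⊕ (Fin m ⊕ Fin m) → K)]
    {e : K →+* F} {σ : F ≃+* F} (he : ∀ y, σ y = y ↔ y ∈ e.range) :
    Cfsg.inndiagPOmegaOdd m F ⊓ Subgroup.centralizer {oddStd F m σ} = (oddBase (m := m) e).range := by
  have hh := autHyp_qOdd' h2 hm
  refine le_antisymm ?_ ?_
  · rintro β ⟨hβ, hc⟩
    rw [inndiag_odd_eq h2 hm] at hβ
    obtain ⟨H, hH, rfl⟩ := hβ
    have hc' := Subgroup.mem_centralizer_iff.1 hc _ rfl
    rw [oddStd, ← map_mul, ← map_mul] at hc'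
    obtain ⟨d, hd⟩ := exists_smul_of_indHom_eq _ _ hh hc'
    simp only [Subgroup.coe_mul, Equiv.Perm.mul_apply, stdSigma_apply] at hd
    set L := linSimEquiv ⟨H, hH⟩
    obtain ⟨i, hi⟩ : ∃ i, L (Pi.single (Sum.inl ()) 1) i ≠ 0 := by
      by_contra! h0
      have h1 : L (Pi.single (Sum.inl ()) 1) = 0 := funext h0
      rw [← map_zero L] at h1
      exact one_ne_zero (α := F) (by simpa using congrFun (L.injective h1) (Sum.inl ()))
    set y := L (Pi.single (Sum.inl ()) 1) i with hy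
    have hdy : σ y = d * y := by
      have h1 := congrFun (hd (Pi.single (Sum.inl ()) 1)) i
      rw [show coordSigma _ σ (Pi.single (Sum.inl ()) (1 : F)) = Pi.single (Sum.inl ()) 1 by
        funext j; rcases eq_or_ne j (Sum.inl ()) with rfl | hj <;> simp [coordSigma_apply, *]] at h1
      simp [coordSigma_apply] at h1
      exact h1
    let L' := L.trans (LinearEquiv.smulOfUnit (Units.mk0 y hi)⁻¹)
    have hL' : ∀ v, L' v = y⁻¹ • (H : Equiv.Perm _) v := fun v => rfl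
    obtain ⟨k, hk⟩ := exists_rational_of_commute e he L' (fun v => by
      have hσy : σ y ≠ 0 := by simpa using hi
      rw [hL', hL', coordSigma_smul, hd, smul_smul, map_inv₀, hdy]
      congr 1
      have hd0 : d ≠ 0 := fun h0 => hσy (by rw [hdy, h0, zero_mul])
      field_simp)
    haveI := hh.nontrivial
    have hmult : ∀ v, qOdd m F (L' v) = (y⁻¹ ^ 2 * simMult H) * qOdd m F v := fun v => by
      rw [hL', qf_smul, linSim_app _ ⟨H, hH⟩, mul_assoc]
    set x₀ : Unit ⊕ (Fin m ⊕ Fin m) → K := Pi.single (Sum.inl ()) 1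
    have hx₀ : qOdd m K x₀ = 1 := by simp [x₀, coe_qOdd, Cfsg.quadFormOdd]
    have hμ : e (qOdd m K (k x₀)) = y⁻¹ ^ 2 * simMult H := by
      rw [← qOdd_base, ← hk, hmult, qOdd_base, hx₀, map_one, mul_one]
    have hne : qOdd m K (k x₀) ≠ 0 := by
      rw [← map_ne_zero e, hμ]
      exact mul_ne_zero (pow_ne_zero _ (inv_ne_zero hi)) (isSemiSim H).ne_zero
    let kS : linSim (qOdd m K) := toLinSim k hne (fun x => e.injective (by
      rw [map_mul, hμ, ← qOdd_base, ← hk, hmult, qOdd_base]))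
    refine ⟨kS, indHom_eq_of_smul _ _ hh (d := y⁻¹) fun v => ?_⟩
    refine lin_eq_of_baseVec (κ := Unit ⊕ (Fin m ⊕ Fin m)) e (a := (linSimEquiv (baseSim (qOdd_base e) kS) : _ →ₗ[F] _))
      (b := y⁻¹ • (L : _ →ₗ[F] _)) (fun x => ?_) v
    change ((baseSim (qOdd_base e) kS).1 : Equiv.Perm _) (baseVec e x) = y⁻¹ • L (baseVec e x)
    rw [baseSim_apply, toLinSim_apply, ← hk]
    rfl
  · rintro _ ⟨k, rfl⟩
    refine ⟨?_, Subgroup.mem_centralizer_iff.2 fun z hz => ?_⟩
    · rw [inndiag_odd_eq h2 hm]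
      exact ⟨_, (baseSim (qOdd_base e) k).2, rfl⟩
    · rw [Set.mem_singleton_iff.1 hz, oddBase, MonoidHom.comp_apply, MonoidHom.comp_apply, oddStd,
        ← map_mul, ← map_mul]
      congr 1
      refine Subtype.ext (Equiv.ext fun v => ?_)
      simp only [Subgroup.coe_mul, Equiv.Perm.mul_apply, stdSigma_apply, Subgroup.coe_subtype]
      exact (baseSim_commute _ he k v).symm

/-- The centraliser of a standard field automorphism. -/
theorem odd_centralizer (h2 : (2 : F) ≠ 0) (hm : 3 ≤ m) {F₀ : Type*} [Field F₀] [Fintype F₀]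
    {e : F₀ →+* F} {σ : F ≃+* F} (he : ∀ y, σ y = y ↔ y ∈ e.range) :
    Nonempty (↥(Cfsg.inndiagPOmegaOdd m F ⊓ Subgroup.centralizer {oddStd F m σ}) ≃*
      ↥(Cfsg.inndiagPOmegaOdd m F₀)) := by
  have h20 := two_ne_zero_of_embedding (e := e) h2
  have hh₀ := autHyp_qOdd' (F := F₀) h20 hm
  have hh := autHyp_qOdd' h2 hm
  haveI := hh₀.nontrivial
  let ψ := (indHom (qOdd m F₀) (coe_qOdd m)).comp (linSim (qOdd m F₀)).subtype
  obtain ⟨E⟩ := nonempty_range_equiv (oddBase e) ψ fun k => by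
    simp only [oddBase, ψ, MonoidHom.comp_apply, indHom_eq_one_iff _ _ hh.toFormHyp,
      indHom_eq_one_iff _ _ hh₀.toFormHyp, Subgroup.coe_subtype]
    constructor
    · rintro ⟨d, hd⟩
      set x₀ : Unit ⊕ (Fin m ⊕ Fin m) → F₀ := Pi.single (Sum.inl ()) 1
      refine ⟨(k.1 : Equiv.Perm _) x₀ (Sum.inl ()), fun x => baseVec_injective e ?_⟩
      have hed : d = e ((k.1 : Equiv.Perm _) x₀ (Sum.inl ())) := by
        have h1 := congrFun (hd (baseVec e x₀)) (Sum.inl ())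
        rw [baseSim_apply] at h1
        simpa [x₀, baseVec] using h1.symm
      rw [← baseSim_apply (qOdd_base e), hd, hed, baseVec_smul]
    · rintro ⟨d, hd⟩
      refine ⟨e d, fun v => ?_⟩
      refine lin_eq_of_baseVec (κ := Unit ⊕ (Fin m ⊕ Fin m)) e (a := (linSimEquiv (baseSim (qOdd_base e) k) : _ →ₗ[F] _))
        (b := e d • LinearMap.id) (fun x => ?_) v
      change ((baseSim (qOdd_base e) k).1 : Equiv.Perm _) (baseVec e x) = e d • baseVec e x
      rw [baseSim_apply, hd, baseVec_smul]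
  exact ⟨(MulEquiv.subgroupCongr (oddBase_range h2 hm he)).trans (E.trans (MulEquiv.subgroupCongr (by
    rw [inndiag_odd_eq h20 hm]
    exact (MonoidHom.range_comp _ _).trans (by rw [Subgroup.range_subtype]))))⟩

/-- The split number. -/
theorem odd_split (h2 : (2 : F) ≠ 0) (hm : 3 ≤ m) [Fintype K] {e : K →+* F} {σ : F ≃+* F}
    (he : ∀ y, σ y = y ↔ y ∈ e.range) (hcard : Fintype.card F = Fintype.card K ^ orderOf σ) :
    (Odd (orderOf σ) → Cfsg.splitClassCount (Cfsg.inndiagPOmegaOdd m F)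
        (Cfsg.Inn (Cfsg.POmega F (Cfsg.quadFormOdd m F))) (oddStd F m σ) = 1) ∧
      (orderOf σ = 2 → Cfsg.splitClassCount (Cfsg.inndiagPOmegaOdd m F)
        (Cfsg.Inn (Cfsg.POmega F (Cfsg.quadFormOdd m F))) (oddStd F m σ) = 2) := by
  have hh := autHyp_qOdd' h2 hm
  have h20 := two_ne_zero_of_embedding (e := e) h2
  have hh₀ := autHyp_qOdd' (F := K) h20 hm
  haveI := hh₀.nontrivial
  haveI := hh.nontrivial
  haveI : Finite (Unit ⊕ (Fin m ⊕ Fin m) → F) := Pi.finite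
  set I := indHom (qOdd m F) (coe_qOdd m)
  set N := Cfsg.Inn (Cfsg.POmega F (Cfsg.quadFormOdd m F))
  have hle : N ≤ Cfsg.inndiagPOmegaOdd m F := by
    rw [inndiag_odd_eq h2 hm]; exact inn_le_map_linSim _ _ hh
  -- normal form of the inner-diagonal elements
  have hrep : ∀ β ∈ Cfsg.inndiagPOmegaOdd m F, ∃ k : orth (qOdd m F), dick k = 1 ∧
      β = I (orthToSim _ k) := by
    intro β hβ
    rw [inndiag_odd_eq h2 hm] at hβ
    obtain ⟨g, hg, rfl⟩ := hβ
    obtain ⟨k, s, hk, hs⟩ := exists_orth_rep h2 hm ⟨g, hg⟩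
    exact ⟨k, hk, indHom_eq_of_smul _ _ hh hs⟩
  have hmemD : ∀ k : orth (qOdd m F), I (orthToSim _ k) ∈ Cfsg.inndiagPOmegaOdd m F := fun k => by
    rw [inndiag_odd_eq h2 hm]; exact ⟨_, orthToSim_mem _ k, rfl⟩
  -- the product of two rational or irrational reflections
  have hprod : ∀ {u w : Unit ⊕ (Fin m ⊕ Fin m) → F}, qOdd m F u = 1 → ¬ IsSquare (qOdd m F w) →
      dick (refl (qOdd m F) u * refl _ w) = 1 ∧ spin (qOdd m F) (refl _ u * refl _ w) = -1 := by
    intro u w hu hw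
    have hu0 : qOdd m F u ≠ 0 := by rw [hu]; exact one_ne_zero
    have hw0 : qOdd m F w ≠ 0 := fun h => hw (by rw [h]; exact IsSquare.zero)
    refine ⟨?_, ?_⟩
    · rw [hh.dick_hom, H5.dick_refl hh.nondeg hu0, H5.dick_refl hh.nondeg hw0]; decide
    · rw [map_mul, H5.spin_refl hu0, H5.spin_refl hw0, hu, H5.sqc_one,
        H5.sqc_eq_neg_one_iff.2 hw, one_mul]
  constructor
  · intro hodd
    rw [splitClassCount_eq_relIndex hle, Subgroup.relIndex_eq_one]
    intro β hβ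
    obtain ⟨k, hk, rfl⟩ := hrep β hβ
    rcases Int.units_eq_one_or (spin (qOdd m F) k) with hs | hs
    · exact Subgroup.mem_sup_left ((rotation_mem_inn_iff h2 hm hk).2 hs)
    obtain ⟨a, ha⟩ := H5.exists_not_isSquare (F := K) h20
    obtain ⟨u, hu⟩ := hh₀.exists_value_one
    obtain ⟨w, -, hw⟩ := exists_value hh₀.nondeg (by have := hh₀.seven_le; omega)
      (fun h => ha (h ▸ IsSquare.zero) : a ≠ 0)
    set k₁ := refl (qOdd m F) (baseVec e u) * refl _ (baseVec e w)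
    obtain ⟨hd1, hs1⟩ := hprod (u := baseVec e u) (w := baseVec e w)
      (by rw [qOdd_base, hu, map_one])
      (by rw [qOdd_base, hw]; exact not_isSquare_map_of_odd he hodd h2 ha)
    have hC : I (orthToSim _ k₁) ∈
        Cfsg.inndiagPOmegaOdd m F ⊓ Subgroup.centralizer {oddStd F m σ} := by
      rw [oddBase_range h2 hm he]
      refine ⟨⟨orthToSim _ (refl (qOdd m K) u * refl _ w), orthToSim_mem _ _⟩, ?_⟩
      have h1 : (⟨orthToSim _ (refl (qOdd m K) u * refl _ w), orthToSim_mem _ _⟩ : linSim (qOdd m K)) =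
          ⟨orthToSim _ (refl (qOdd m K) u), orthToSim_mem _ _⟩ *
            ⟨orthToSim _ (refl (qOdd m K) w), orthToSim_mem _ _⟩ := Subtype.ext (map_mul _ _ _)
      rw [oddBase, MonoidHom.comp_apply, MonoidHom.comp_apply, h1, map_mul, baseSim_refl, baseSim_refl,
        map_mul, Subgroup.coe_subtype, ← map_mul]
    have hN : I (orthToSim _ (k * k₁)) ∈ N := (rotation_mem_inn_iff h2 hm
      (by rw [hh.dick_hom, hk, hd1, one_mul])).2 (by rw [map_mul, hs, hs1]; decide)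
    rw [show k = k * k₁ * k₁⁻¹ by rw [mul_inv_cancel_right], map_mul, map_mul, map_inv, map_inv]
    exact mul_mem (Subgroup.mem_sup_left hN) (inv_mem (Subgroup.mem_sup_right hC))
  · intro h2r
    rw [splitClassCount_eq_relIndex hle]
    have hsq : ∀ a : K, IsSquare (e a) := isSquare_map_of_two (by rw [hcard, h2r])
    have hCN : Cfsg.inndiagPOmegaOdd m F ⊓ Subgroup.centralizer {oddStd F m σ} ≤ N := by
      rw [oddBase_range h2 hm he]
      rintro _ ⟨kS, rfl⟩
      obtain ⟨k₀, s, hk₀, hs⟩ := exists_orth_rep h20 hm kS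
      obtain ⟨kF, hkF, hsp⟩ := exists_orth_base hh.nondeg (qOdd_base e) hh₀.nondeg hh₀.std hsq k₀
      obtain ⟨nF, hnF, hnsp⟩ := exists_orth_base hh.nondeg (qOdd_base e) hh₀.nondeg hh₀.std hsq
        (negOrth _)
      have hneg : nF = negOrth (qOdd m F) := orth_ext fun v => by
        refine lin_eq_of_baseVec (κ := Unit ⊕ (Fin m ⊕ Fin m)) e (a := nF.1.toLinearMap)
          (b := (negOrth (qOdd m F)).1.toLinearMap) (fun x => ?_) v
        have h1 := baseSim_apply (qOdd_base e) ⟨orthToSim _ (negOrth (qOdd m K)), orthToSim_mem _ _⟩ x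
        rw [hnF] at h1
        refine h1.trans ?_
        funext i
        simp [baseVec, orthToSim_apply, negOrth_apply]
      have hI : oddBase e kS = I (orthToSim _ kF) := by
        rw [oddBase, MonoidHom.comp_apply, MonoidHom.comp_apply]
        refine indHom_eq_of_smul _ _ hh (d := e s) fun v => ?_
        refine lin_eq_of_baseVec (κ := Unit ⊕ (Fin m ⊕ Fin m)) e (a := (linSimEquiv (baseSim (qOdd_base e) kS) : _ →ₗ[F] _))
          (b := e s • kF.1.toLinearMap) (fun x => ?_) v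
        change ((baseSim (qOdd_base e) kS).1 : Equiv.Perm _) (baseVec e x) =
          e s • kF.1 (baseVec e x)
        have h1 := baseSim_apply (qOdd_base e) ⟨orthToSim _ k₀, orthToSim_mem _ _⟩ x
        rw [hkF] at h1
        rw [baseSim_apply, hs, baseVec_smul]
        exact congrArg (e s • ·) h1.symm
      rw [hI]
      rcases Int.units_eq_one_or (dick kF) with h | h
      · exact (rotation_mem_inn_iff h2 hm h).2 hsp
      · have hdn : dick (negOrth (qOdd m F)) = -1 := by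
          have h1 := dick_negOrth hh.toFormHyp h2
          refine (Int.units_eq_one_or _).resolve_left fun h3 => ?_
          rw [h3, Module.finrank_fintype_fun_eq_card] at h1
          simp at h1
          exact h2 (by linear_combination h1)
        rw [show I (orthToSim _ kF) = I (orthToSim _ (negOrth _ * kF)) from
          indHom_eq_of_smul _ _ hh (d := -1) fun v => by
            rw [orthToSim_apply, orthToSim_apply, orth_mul_apply, negOrth_apply, neg_one_smul, neg_neg]]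
        refine (rotation_mem_inn_iff h2 hm ?_).2 ?_
        · rw [hh.dick_hom, hdn, h]; decide
        · rw [map_mul, ← hneg, hnsp, hsp, one_mul]
    rw [sup_eq_left.2 hCN, Subgroup.relIndex, Subgroup.index_eq_two_iff]
    obtain ⟨u, hu⟩ := hh.exists_value_one
    obtain ⟨ns, hns⟩ := H5.exists_not_isSquare (F := F) h2
    obtain ⟨w, -, hw⟩ := exists_value hh.nondeg (by have := hh.seven_le; omega)
      (fun h => hns (h ▸ IsSquare.zero) : ns ≠ 0)
    obtain ⟨hd1, hs1⟩ := hprod hu (by rw [hw]; exact hns : ¬ IsSquare (qOdd m F w))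
    refine ⟨⟨_, hmemD (refl (qOdd m F) u * refl _ w)⟩, ?_⟩
    rintro ⟨β, hβ⟩
    obtain ⟨k, hk, rfl⟩ := hrep β hβ
    simp only [Subgroup.mem_subgroupOf, Subgroup.coe_mul, ← map_mul]
    rw [rotation_mem_inn_iff h2 hm hk, rotation_mem_inn_iff h2 hm
      (by rw [hh.dick_hom, hk, hd1, one_mul]), map_mul, hs1]
    rcases Int.units_eq_one_or (spin (qOdd m F) k) with h | h <;> rw [h] <;> decide

/-- The three assertions about a field automorphism of prime order. -/
theorem odd_fieldAut_prime_order {p f : ℕ} [Fact p.Prime] (hF : Fintype.card F = p ^ f)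
    (h2 : (2 : F) ≠ 0) (hm : 3 ≤ m) {x : MulAut (Cfsg.POmega F (Cfsg.quadFormOdd m F))}
    (hx : Cfsg.IsFieldAutClassPOmega (Cfsg.quadFormOdd m F) x) {r : ℕ} (hr : r.Prime)
    (hxr : orderOf x = r) (F₀ : Type*) [Field F₀] [Fintype F₀]
    (hF₀ : Fintype.card F₀ = p ^ (f / r)) :
    r ∣ f ∧ Nonempty (↥(Cfsg.inndiagPOmegaOdd m F ⊓ Subgroup.centralizer {x}) ≃*
        ↥(Cfsg.inndiagPOmegaOdd m F₀)) ∧
      (Odd r → Cfsg.splitClassCount (Cfsg.inndiagPOmegaOdd m F)
        (Cfsg.Inn (Cfsg.POmega F (Cfsg.quadFormOdd m F))) x = 1) ∧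
      (r = 2 → Cfsg.splitClassCount (Cfsg.inndiagPOmegaOdd m F)
        (Cfsg.Inn (Cfsg.POmega F (Cfsg.quadFormOdd m F))) x = 2) := by
  obtain ⟨α, σ, hα, hσ⟩ := exists_oddStd h2 hm hx
  rw [hxr] at hσ
  obtain ⟨hdiv, e, he, hcard⟩ := exists_embedding_of_card hF σ hσ hr F₀ hF₀
  haveI := inndiag_odd_normal h2 hm
  obtain ⟨E₁⟩ := nonempty_centralizer_conj (D := Cfsg.inndiagPOmegaOdd m F) α x
  obtain ⟨E₂⟩ := odd_centralizer h2 hm (F₀ := F₀) he
  have hle : Cfsg.Inn (Cfsg.POmega F (Cfsg.quadFormOdd m F)) ≤ Cfsg.inndiagPOmegaOdd m F := by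
    rw [inndiag_odd_eq h2 hm]; exact inn_le_map_linSim _ _ (autHyp_qOdd' h2 hm)
  have hs := odd_split h2 hm he (hσ.symm ▸ hcard)
  rw [← splitClassCount_conj hle α x, hα, ← hσ]
  exact ⟨hσ.symm ▸ hdiv, ⟨E₁.trans ((MulEquiv.subgroupCongr (by rw [hα])).trans E₂)⟩, hs⟩

end Cfsg.Agent.H4
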