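import Cfsg.Agent.H4.Coset.PlusBasic

/-!
Field and graph-field automorphisms of prime order of `PΩ⁺_{2m}(q)`, `m ≥ 5`.
-/

set_option autoImplicit false

namespace Cfsg.Agent.H4

open QuadraticMap hiding sq
open Module
open scoped Matrix
open Cfsg.Agent.H5 (orth refl refl_apply dick spin sqc orth_map orth_ext orth_mul_apply)

variable {F : Type*} [Field F] {k : ℕ}

variable (F k) in
/-- The swap of the last pair. -/
def lastSwap : semiSimGroup (qPlus (k + 1) F) :=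
  orthToSim (qPlus (k + 1) F) (refl (qPlus (k + 1) F) (swapVec F (Fin.last k)))

variable (k) in
/-- The standard lift of a field automorphism. -/
def plusPhi (σ : F ≃+* F) : semiSimGroup (qPlus (k + 1) F) :=
  stdSigma (qPlus (k + 1) F) (qPlus_rational σ)

theorem plusPhi_apply (σ : F ≃+* F) (v : Fin (k + 1) ⊕ Fin (k + 1) → F) :
    (plusPhi k σ : Equiv.Perm (Fin (k + 1) ⊕ Fin (k + 1) → F)) v = coordSigma _ σ v := rfl

theorem lastSwap_commute (σ : F ≃+* F) : Commute (lastSwap F k) (plusPhi k σ) :=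
  Subtype.ext (Equiv.ext fun v => by
    simp only [Subgroup.coe_mul, Equiv.Perm.mul_apply, plusPhi_apply, lastSwap, orthToSim_apply,
      refl_swapVec]
    rfl)

theorem plusPhi_commute {σ τ : F ≃+* F} (h : σ * τ = τ * σ) : Commute (plusPhi k σ) (plusPhi k τ) :=
  Subtype.ext (Equiv.ext fun v => funext fun i => DFunLike.congr_fun h (v i))

theorem simSigma_plusPhi (σ : F ≃+* F) : simSigma (plusPhi k σ) = σ :=
  simSigma_eq (coordSigma_smul σ)

variable [Fintype F]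

theorem plusHyp (hk : 4 ≤ k) : AutHyp (qPlus (k + 1) F) :=
  qPlus_eq_H5 (F := F) (k + 1) ▸ autHyp_qPlus (by omega)

theorem lastSwap_not_proper (hk : 2 ≤ k) (h : lastSwap F k ∈ linSim (qPlus (k + 1) F)) :
    ¬ IsProper (k + 1) (⟨lastSwap F k, h⟩ : linSim (qPlus (k + 1) F)) := by
  haveI : Finite (Fin (k + 1) ⊕ Fin (k + 1) → F) := Pi.finite
  have hE := evenForm_qPlus (F := F) (m := k + 1) (by omega)
  intro hp
  rw [isProper_smul_iff hE _ (refl _ (swapVec F (Fin.last k))) (s := 1)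
    (fun v => by rw [one_smul]; rfl),
    H5.dick_refl hE.nondeg (by rw [qPlus_swapVec]; simp)] at hp
  exact absurd hp (by decide)

theorem inndiag_plus_eq (hk : 4 ≤ k) :
    Cfsg.inndiagPOmegaPlus (k + 1) F =
      properImage (coe_qPlus (k + 1)) (evenForm_qPlus (F := F) (by omega)) := by
  haveI : Finite (Fin (k + 1) ⊕ Fin (k + 1) → F) := Pi.finite
  set hE := evenForm_qPlus (F := F) (m := k + 1) (by omega)
  haveI := hE.nontrivial
  obtain ⟨W, hW, hWr⟩ := qPlus_singular (F := F) (k + 1)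
  refine le_antisymm ((Subgroup.closure_le _).2 ?_) ?_
  · rintro β ⟨M, ⟨c, hc⟩, hM, hβ⟩
    obtain ⟨g, hg, hgs⟩ := exists_sim_of_pair (qPlus (k + 1) F) (coe_qPlus _) (M := M)
      (σ := RingEquiv.refl F) ⟨c, hc⟩
    exact ⟨g, (mem_properSim hE (g := ⟨g, hgs⟩)).2
      ((preserves_iff_proper (coe_qPlus _) hE ⟨W, hWr, hW⟩ ⟨g, hgs⟩ _ hg).1 hM),
      ((induced_iff _ (coe_qPlus _) g M _ hg β).1 hβ).symm⟩
  · rintro _ ⟨g, hg, rfl⟩
    refine Subgroup.subset_closure ?_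
    set M := semiMatrix (simEquiv g) (RingEquiv.refl F) hg.1
    have hMv : ∀ v, (M : Matrix _ _ F) *ᵥ v = (g : Equiv.Perm _) v := fun v =>
      semiMatrix_mulVec (simEquiv g) (RingEquiv.refl F) hg.1 v
    exact ⟨M, ⟨Units.mk0 _ (isSemiSim g).ne_zero, fun v => by
        rw [Units.val_mk0, hMv, ← coe_qPlus]; exact linSim_app _ ⟨g, hg.1⟩ v⟩,
      (preserves_iff_proper (coe_qPlus _) hE ⟨W, hWr, hW⟩ ⟨g, hg.1⟩ _ hMv).2 hg.2,
      (induced_iff _ (coe_qPlus _) g M _ hMv _).2 rfl⟩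

theorem inndiag_plus_normal (hk : 4 ≤ k) : (Cfsg.inndiagPOmegaPlus (k + 1) F).Normal := by
  rw [inndiag_plus_eq hk]
  exact properImage_normal _ (plusHyp hk) _

/-- In odd degree an anisotropic binary form over the fixed field stays anisotropic. -/
theorem anisotropic_of_odd {K : Type*} [Field K] {e : K →+* F} {σ : F ≃+* F}
    (he : ∀ y, σ y = y ↔ y ∈ e.range) (hodd : Odd (orderOf σ)) {ζ : K}
    (hζ : ∀ t : K, t ^ 2 + t + ζ ≠ 0) :
    ∀ z₁ z₂ : F, z₁ ^ 2 + e 1 * z₁ * z₂ + e ζ * z₂ ^ 2 = 0 → z₁ = 0 ∧ z₂ = 0 := by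
  intro z₁ z₂ h
  rw [map_one, one_mul] at h
  by_cases h2 : z₂ = 0
  · subst h2
    exact ⟨pow_eq_zero_iff two_ne_zero |>.1 (by linear_combination h), rfl⟩
  exfalso
  set u := z₁ / z₂ with hu
  have hroot : u ^ 2 + u + e ζ = 0 := by
    rw [hu]; field_simp; linear_combination h
  have hσu : σ u ^ 2 + σ u + e ζ = 0 := by
    have := congrArg σ hroot
    rwa [map_add, map_add, map_pow, map_zero, (he (e ζ)).2 ⟨ζ, rfl⟩] at this
  have hfix : σ u = u := by
    rcases mul_eq_zero.1 (show (σ u - u) * (σ u + u + 1) = 0 by linear_combination hσu - hroot) with h1 | h1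
    · exact sub_eq_zero.1 h1
    have h3 : σ (σ u) = u := by
      have := congrArg σ h1
      rw [map_add, map_add, map_one, map_zero] at this
      linear_combination this - h1
    obtain ⟨i, hi⟩ := hodd
    have hp : ∀ j : ℕ, (σ ^ (2 * j)) u = u := fun j => by
      induction j with
      | zero => simp
      | succ j ih => rw [Nat.mul_succ, pow_add, RingAut.mul_apply, sq, RingAut.mul_apply, h3, ih]
    have h4 : σ ^ (2 * (i + 1)) = σ := by
      rw [show 2 * (i + 1) = orderOf σ + 1 by omega, pow_succ, pow_orderOf_eq_one, one_mul]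
    have h5 := hp (i + 1)
    rwa [h4] at h5
  obtain ⟨v, hv⟩ := (he u).1 hfix
  refine hζ v (e.injective ?_)
  rw [map_add, map_add, map_pow, map_zero, hv, hroot]

/-- The data of a quadratic extension. -/
theorem exists_twist_data {K : Type*} [Field K] {e : K →+* F} {σ : F ≃+* F}
    (he : ∀ y, σ y = y ↔ y ∈ e.range) (hσ : orderOf σ = 2) :
    ∃ (ω : F) (a₀ b₀ : K), σ ω ≠ ω ∧ σ (σ ω) = ω ∧ e a₀ = -(ω + σ ω) ∧ e b₀ = ω * σ ω ∧
      ∀ z₁ z₂ : K, z₁ ^ 2 + a₀ * z₁ * z₂ + b₀ * z₂ ^ 2 = 0 → z₁ = 0 ∧ z₂ = 0 := by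
  obtain ⟨ω, hω⟩ : ∃ ω, σ ω ≠ ω := by
    by_contra! h
    rw [show σ = 1 from RingEquiv.ext h, orderOf_one] at hσ
    omega
  have hσσ : ∀ x, σ (σ x) = x := fun x => by
    rw [← RingAut.mul_apply, ← sq, ← hσ, pow_orderOf_eq_one]; rfl
  obtain ⟨a₀, ha⟩ := (he (-(ω + σ ω))).1 (by rw [map_neg, map_add, hσσ, add_comm])
  obtain ⟨b₀, hb⟩ := (he (ω * σ ω)).1 (by rw [map_mul, hσσ, mul_comm])
  refine ⟨ω, a₀, b₀, hω, hσσ ω, ha, hb, fun z₁ z₂ h => ?_⟩
  have h' : (e z₁ - ω * e z₂) * (e z₁ - σ ω * e z₂) = 0 := by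
    have := congrArg e h
    simp only [map_add, map_mul, map_pow, map_zero, ha, hb] at this
    linear_combination this
  by_cases h2 : z₂ = 0
  · subst h2
    exact ⟨pow_eq_zero_iff two_ne_zero |>.1 (by linear_combination h), rfl⟩
  exfalso
  have he2 : e z₂ ≠ 0 := (map_ne_zero e).2 h2
  apply hω
  have hq : σ (e z₁ / e z₂) = e z₁ / e z₂ := (he _).2 ⟨z₁ / z₂, map_div₀ e _ _⟩
  rcases mul_eq_zero.1 h' with h1 | h1
  · rwa [show ω = e z₁ / e z₂ by field_simp; linear_combination -h1]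
  · have h3 : σ ω = e z₁ / e z₂ := by field_simp; linear_combination -h1
    have h4 := congrArg σ h3
    rw [hσσ, hq] at h4
    rw [h3, h4]

/-- Lang's theorem for the hyperbolic form: the coset of a field automorphism has one class of
elements of prime order on each side. -/
theorem plus_lang (hk : 4 ≤ k) {σ : F ≃+* F} {r : ℕ} (hr : r.Prime) (hσ : orderOf σ = r)
    (L : linSim (qPlus (k + 1) F))
    (hpow : indHom (qPlus (k + 1) F) (coe_qPlus _) (L.1 * plusPhi k σ) ^ r = 1) :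
    ∃ β ∈ Cfsg.inndiagPOmegaPlus (k + 1) F,
      (IsProper (k + 1) L ∧ indHom (qPlus (k + 1) F) (coe_qPlus _) (L.1 * plusPhi k σ) =
        β * indHom (qPlus (k + 1) F) (coe_qPlus _) (plusPhi k σ) * β⁻¹) ∨
      (¬ IsProper (k + 1) L ∧ r = 2 ∧ indHom (qPlus (k + 1) F) (coe_qPlus _) (L.1 * plusPhi k σ) =
        β * indHom (qPlus (k + 1) F) (coe_qPlus _) (lastSwap F k * plusPhi k σ) * β⁻¹) := by
  classical
  haveI : Finite (Fin (k + 1) ⊕ Fin (k + 1) → F) := Pi.finite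
  have hh := plusHyp (F := F) hk
  have hE := evenForm_qPlus (F := F) (m := k + 1) (by omega)
  haveI := properImage_normal (coe_qPlus (k + 1)) hh hE
  set I := indHom (qPlus (k + 1) F) (coe_qPlus (k + 1)) with hI
  set D := properImage (coe_qPlus (k + 1)) hE
  rw [inndiag_plus_eq hk]
  obtain ⟨K, hK, -⟩ := exists_fixed_embedding σ
  haveI := Fintype.ofFinite K
  set g := L.1 * plusPhi k σ with hg
  rw [← map_pow, indHom_eq_one_iff _ _ hh] at hpow
  obtain ⟨lam, hlam⟩ := hpow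
  have hgσ : ∀ (t : F) (v : Fin (k + 1) ⊕ Fin (k + 1) → F),
      (g : Equiv.Perm (Fin (k + 1) ⊕ Fin (k + 1) → F)) (t • v) =
        σ t • (g : Equiv.Perm (Fin (k + 1) ⊕ Fin (k + 1) → F)) v := fun t v => by
    simp only [hg, Subgroup.coe_mul, Equiv.Perm.mul_apply, plusPhi_apply, coordSigma_smul, L.2 _ _]
  obtain ⟨d, h, t, P', -, ht, hP'nd, hgh, hP⟩ := twist_descent K.subtype hσ hK hh.nondeg
    hE.exists_ne g hgσ hlam
  have hrk : finrank K (Fin (k + 1) ⊕ Fin (k + 1) → K) = 2 * (k + 1) := by simp; ring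
  have hEK := evenForm_qPlus (F := K) (m := k + 1) (by omega)
  haveI := hEK.nontrivial
  have hDL : I L.1 ∈ D ↔ IsProper (k + 1) L :=
    (mem_properImage_iff (coe_qPlus (k + 1)) hh hE L.1).trans (mem_properSim hE)
  rcases isom_std_even hP'nd hrk with ⟨g₀, hg₀⟩ | ⟨-, ζ, hζ, g₀, hg₀⟩
  · obtain ⟨β, hβ, hc⟩ := even_conj_of_isom (coe_qPlus (k + 1)) hh hE hEK hK (qPlus_base K.subtype)
      (qPlus_rational σ) g h ht hgh hP g₀ hg₀
    refine ⟨β, hβ, Or.inl ⟨?_, hc⟩⟩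
    rw [← hDL]
    have h1 : I L.1 = β * (I (plusPhi k σ) * β⁻¹ * (I (plusPhi k σ))⁻¹) := by
      rw [show I L.1 = I g * (I (plusPhi k σ))⁻¹ by rw [hg, map_mul, mul_inv_cancel_right], hc]
      simp only [plusPhi, mul_assoc]
      rfl
    rw [h1]
    exact mul_mem hβ ((inferInstance : D.Normal).conj_mem _ (inv_mem hβ) _)
  -- minus type over the fixed field
  have hr2 : r = 2 := by
    rcases hr.eq_two_or_odd' with h2 | hodd
    · exact h2
    exfalso
    have hab := anisotropic_of_odd hK (hσ.symm ▸ hodd) hζ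
    obtain ⟨gF, hgF⟩ := exists_baseChange_equiv K.subtype g₀
    have hval : ∀ v, qPlus (k + 1) F (h v) =
        t * qMinus (k + 1 - 1) F (K.subtype 1) (K.subtype ζ) (gF v) := fun v => by
      have := qf_eq_of_baseVec K.subtype
        (Q := (qPlus (k + 1) F).comp
          (h : (Fin (k + 1) ⊕ Fin (k + 1) → F) →ₗ[F] (Fin (k + 1) ⊕ Fin (k + 1) → F)))
        (Q' := t • (qMinus (k + 1 - 1) F (K.subtype 1) (K.subtype ζ)).comp
          (gF : (Fin (k + 1) ⊕ Fin (k + 1) → F) →ₗ[F] _)) (fun x => by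
          simp only [QuadraticMap.comp_apply, LinearEquiv.coe_coe, _root_.QuadraticMap.smul_apply,
            smul_eq_mul]
          rw [hP, hgF, qMinus_base, hg₀]) v
      simpa using this
    obtain ⟨W, hW, hWr⟩ := qPlus_singular (F := F) (k + 1)
    refine qMinus_no_singular hab (k + 1 - 1)
      (W.map ((h.symm.trans gF : (Fin (k + 1) ⊕ Fin (k + 1) → F) ≃ₗ[F] _) : _ →ₗ[F] _)) ?_
      (by rw [LinearEquiv.finrank_map_eq, hWr, Nat.add_sub_cancel])
    rintro _ ⟨w, hw, rfl⟩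
    have h1 := hval (h.symm w)
    rw [LinearEquiv.apply_symm_apply, hW w hw, eq_comm, mul_eq_zero] at h1
    exact h1.resolve_left ht
  subst hr2
  obtain ⟨ω, a₀, b₀, hω, hσω, ha, hb, hab₀⟩ := exists_twist_data hK hσ
  obtain ⟨j, hj, hjσ⟩ := exists_untwist (k := k) hω hσω ha hb
  have hd₀ : (K.subtype a₀) ^ 2 - 4 * K.subtype b₀ ≠ 0 := by
    rw [← map_pow, ← map_ofNat K.subtype 4, ← map_mul, ← map_sub]
    exact (map_ne_zero K.subtype).2 (disc_ne_zero hab₀)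
  have hhM : AutHyp (qMinus k F (K.subtype a₀) (K.subtype b₀)) := by
    have hr : finrank F ((Fin k ⊕ Fin k) ⊕ Fin 2 → F) = 2 * (k + 1) := by simp; ring
    exact ⟨⟨qMinus_nondegenerate hd₀ k, by omega, fun _ => ⟨k + 1, by omega⟩⟩, fun h => by omega⟩
  have hσM : ∀ v, qMinus k F (K.subtype a₀) (K.subtype b₀) (coordSigma _ σ v) =
      σ (qMinus k F (K.subtype a₀) (K.subtype b₀) v) := fun v => by
    have e1 : σ (a₀ : F) = a₀ := (hK _).2 ⟨a₀, rfl⟩
    have e2 : σ (b₀ : F) = b₀ := (hK _).2 ⟨b₀, rfl⟩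
    simp [coe_qMinus, Cfsg.quadFormMinus, coordSigma_apply, map_sum, e1, e2]
  obtain ⟨k₁, hk₁⟩ := isom_even_of_iff hP'nd (qMinus_nondegenerate' hab₀ k) hrk (by simp; ring)
    (iff_of_false (fun ⟨W, hW, hWr⟩ => by
      refine qMinus_no_singular (anisotropic_of_no_root hζ) (k + 1 - 1)
        (W.map (g₀ : (Fin (k + 1) ⊕ Fin (k + 1) → K) →ₗ[K] _)) ?_
        (by rw [LinearEquiv.finrank_map_eq, hWr, Nat.add_sub_cancel])
      rintro _ ⟨w, hw, rfl⟩
      rw [LinearEquiv.coe_coe, hg₀, hW w hw])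
      (fun ⟨W, hW, hWr⟩ => qMinus_no_singular hab₀ k W hW hWr))
  obtain ⟨H, hHQ, hH⟩ := even_lang (coe_qMinus k _ _) hhM hK (qMinus_base K.subtype k a₀ b₀) hσM
    (g : Equiv.Perm (Fin (k + 1) ⊕ Fin (k + 1) → F)) h ht hgh hP k₁ hk₁
  let H' : linSim (qPlus (k + 1) F) := toLinSim (j.trans H) ht
    (fun v => by rw [LinearEquiv.trans_apply, hHQ, hj])
  have hJl : lastSwap F k ∈ linSim (qPlus (k + 1) F) := orthToSim_mem _ _
  have hT : I (g * H'.1) = I (H'.1 * (lastSwap F k * plusPhi k σ)) :=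
    indHom_eq_of_smul _ _ hh (d := d) fun v => by
      simp only [Subgroup.coe_mul, Equiv.Perm.mul_apply, plusPhi_apply]
      change (g : Equiv.Perm _) (H (j v)) =
        d • H (j ((refl _ (swapVec F (Fin.last k))).1 (coordSigma _ σ v)))
      rw [hjσ]
      exact hH (j v)
  obtain ⟨H₂, hH₂, hT₂⟩ : ∃ H₂ : linSim (qPlus (k + 1) F), IsProper (k + 1) H₂ ∧
      I (g * H₂.1) = I (H₂.1 * (lastSwap F k * plusPhi k σ)) := by
    by_cases hp : IsProper (k + 1) H'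
    · exact ⟨H', hp, hT⟩
    refine ⟨H' * ⟨lastSwap F k, hJl⟩,
      (isProper_mul_iff hE _ _).2 (iff_of_false hp (lastSwap_not_proper (by omega) hJl)), ?_⟩
    have hc : lastSwap F k * (lastSwap F k * plusPhi k σ) =
        lastSwap F k * plusPhi k σ * lastSwap F k := by
      rw [mul_assoc (lastSwap F k) (plusPhi k σ), ← (lastSwap_commute σ).eq]
    rw [Subgroup.coe_mul, mul_assoc H'.1, hc, ← mul_assoc, ← mul_assoc, map_mul, hT, ← map_mul,
      ← mul_assoc]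
  have hβ : I H₂.1 ∈ D := (mem_properImage_iff (coe_qPlus (k + 1)) hh hE _).2 ((mem_properSim hE).2 hH₂)
  have hc : I g = I H₂.1 * I (lastSwap F k * plusPhi k σ) * (I H₂.1)⁻¹ :=
    eq_mul_inv_of_mul_eq (by rw [← map_mul, ← map_mul, hT₂])
  refine ⟨_, hβ, Or.inr ⟨fun hp => ?_, rfl, hc⟩⟩
  have h1 : I L.1 = I H₂.1 * I (lastSwap F k) *
      (I (plusPhi k σ) * (I H₂.1)⁻¹ * (I (plusPhi k σ))⁻¹) := by
    rw [show I L.1 = I g * (I (plusPhi k σ))⁻¹ by rw [hg, map_mul, mul_inv_cancel_right], hc, map_mul]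
    simp only [mul_assoc]
  have h2 := hDL.2 hp
  rw [h1, Subgroup.mul_mem_cancel_right _ ((inferInstance : D.Normal).conj_mem _ (inv_mem hβ) _),
    Subgroup.mul_mem_cancel_left _ hβ, hI, mem_properImage_iff (coe_qPlus (k + 1)) hh hE] at h2
  exact lastSwap_not_proper (by omega) hJl ((mem_properSim hE (g := ⟨_, hJl⟩)).1 h2)

/-- The order of the field part of an element of prime order in the coset. -/
theorem orderOf_field_part (hk : 4 ≤ k) {σ : F ≃+* F} {r : ℕ} (hr : r.Prime) (hne : σ ≠ 1)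
    {L : semiSimGroup (qPlus (k + 1) F)} (hL : L ∈ linSim (qPlus (k + 1) F))
    (hpow : indHom (qPlus (k + 1) F) (coe_qPlus _) (L * plusPhi k σ) ^ r = 1) : orderOf σ = r := by
  haveI := Fact.mk hr
  have hE := evenForm_qPlus (F := F) (m := k + 1) (by omega)
  haveI := hE.nontrivial
  rw [← map_pow, indHom_eq_one_iff _ _ (plusHyp (F := F) hk).toFormHyp] at hpow
  obtain ⟨lam, hlam⟩ := hpow
  refine orderOf_eq_prime ?_ hne
  have h1 : simSigma ((L * plusPhi k σ) ^ r) = 1 :=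
    simSigma_eq fun t v => by rw [hlam, hlam, smul_comm]; rfl
  rwa [simSigma_pow, simSigma_mul, simSigma_linear hL, simSigma_plusPhi, one_mul] at h1

/-- The normal form of a field or graph-field automorphism of prime order. -/
theorem exists_plus_twist (hk : 4 ≤ k) {x : MulAut (Cfsg.POmega F (Cfsg.quadFormPlus (k + 1) F))}
    {r : ℕ} (hr : r.Prime) (hxr : orderOf x = r)
    (hx : Cfsg.IsFieldAutClassPOmega (Cfsg.quadFormPlus (k + 1) F) x ∨
      Cfsg.IsGraphFieldAutClassPOmegaPlus (k + 1) x) :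
    ∃ (α : MulAut (Cfsg.POmega F (Cfsg.quadFormPlus (k + 1) F))) (σ : F ≃+* F)
      (L : linSim (qPlus (k + 1) F)), orderOf σ = r ∧
      α * x * α⁻¹ = indHom (qPlus (k + 1) F) (coe_qPlus _) (L.1 * plusPhi k σ) ∧
      (Cfsg.IsGraphFieldAutClassPOmegaPlus (k + 1) x → ∃ (α' : MulAut (Cfsg.POmega F (Cfsg.quadFormPlus (k + 1) F)))
        (σ' : F ≃+* F) (L' : linSim (qPlus (k + 1) F)), orderOf σ' = r ∧ ¬ IsProper (k + 1) L' ∧
        α' * x * α'⁻¹ = indHom (qPlus (k + 1) F) (coe_qPlus _) (L'.1 * plusPhi k σ')) := by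
  have hpow : ∀ (α : MulAut (Cfsg.POmega F (Cfsg.quadFormPlus (k + 1) F))) {z},
      α * x * α⁻¹ = z → z ^ r = 1 := fun α z hz => by
    rw [← hz, ← MulAut.conj_apply, ← map_pow, ← hxr, pow_orderOf_eq_one, map_one]
  have hgraph : Cfsg.IsGraphFieldAutClassPOmegaPlus (k + 1) x →
      ∃ (α' : MulAut (Cfsg.POmega F (Cfsg.quadFormPlus (k + 1) F)))
        (σ' : F ≃+* F) (L' : linSim (qPlus (k + 1) F)), orderOf σ' = r ∧ ¬ IsProper (k + 1) L' ∧
        α' * x * α'⁻¹ = indHom (qPlus (k + 1) F) (coe_qPlus _) (L'.1 * plusPhi k σ') := by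
    rintro ⟨α, γ, φ, σ, v, R, hne, hv, -, hR, hγ, hφ, hα⟩
    haveI : Finite (Fin (k + 1) ⊕ Fin (k + 1) → F) := Pi.finite
    have hE := evenForm_qPlus (F := F) (m := k + 1) (by omega)
    set ρ := orthToSim (qPlus (k + 1) F) (refl (qPlus (k + 1) F) v)
    have hγ' : γ = indHom (qPlus (k + 1) F) (coe_qPlus _) ρ := by
      refine (induced_iff _ (coe_qPlus _) ρ R _ (fun w => ?_) γ).1 hγ
      rw [hR, ← coe_qPlus]
      exact H5.reflectionMatrix_mulVec _ v w
    rw [fieldAutOf_iff _ (coe_qPlus _) (qPlus_rational σ)] at hφ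
    have he : α * x * α⁻¹ = indHom (qPlus (k + 1) F) (coe_qPlus _) (ρ * plusPhi k σ) := by
      rw [hα, hγ', hφ, map_mul]; rfl
    refine ⟨α, σ, ⟨ρ, orthToSim_mem _ _⟩,
      orderOf_field_part hk hr hne (orthToSim_mem _ _) (hpow α he), fun hp => ?_, he⟩
    rw [isProper_smul_iff hE _ (refl _ v) (s := 1) (fun w => by rw [one_smul, orthToSim_apply]),
      H5.dick_refl hE.nondeg (by rw [coe_qPlus]; exact hv)] at hp
    exact absurd hp (by decide)
  rcases hx with ⟨α, φ, σ, hne, hφ, hα⟩ | hx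
  · rw [fieldAutOf_iff _ (coe_qPlus _) (qPlus_rational σ)] at hφ
    have he : α * x * α⁻¹ = indHom (qPlus (k + 1) F) (coe_qPlus _)
        ((1 : linSim (qPlus (k + 1) F)).1 * plusPhi k σ) := by
      rw [hα, hφ, Subgroup.coe_one, one_mul]; rfl
    exact ⟨α, σ, 1, orderOf_field_part hk hr hne (one_mem _) (hpow α he), he, hgraph⟩
  · obtain ⟨α, σ, L, h1, -, h2⟩ := hgraph hx
    exact ⟨α, σ, L, h1, h2, hgraph⟩

/-- The coset criterion. -/
theorem plus_coset_conjugacy (hk : 4 ≤ k)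
    {x δ : MulAut (Cfsg.POmega F (Cfsg.quadFormPlus (k + 1) F))}
    (hx : Cfsg.IsFieldAutClassPOmega (Cfsg.quadFormPlus (k + 1) F) x ∨
      Cfsg.IsGraphFieldAutClassPOmegaPlus (k + 1) x) {r : ℕ} (hr : r.Prime) (hxr : orderOf x = r)
    (hδ : δ ∈ Cfsg.inndiagPOmegaPlus (k + 1) F) :
    orderOf (δ * x) = r ↔ Cfsg.IsConjUnder (Cfsg.inndiagPOmegaPlus (k + 1) F) x (δ * x) := by
  constructor
  · intro ho
    haveI : Finite (Fin (k + 1) ⊕ Fin (k + 1) → F) := Pi.finite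
    have hE := evenForm_qPlus (F := F) (m := k + 1) (by omega)
    haveI := inndiag_plus_normal (F := F) hk
    obtain ⟨α, σ, L, hσ, hα, -⟩ := exists_plus_twist hk hr hxr hx
    set I := indHom (qPlus (k + 1) F) (coe_qPlus (k + 1))
    have hδ' : α * δ * α⁻¹ ∈ Cfsg.inndiagPOmegaPlus (k + 1) F :=
      (inferInstance : (Cfsg.inndiagPOmegaPlus (k + 1) F).Normal).conj_mem δ hδ α
    rw [inndiag_plus_eq hk] at hδ'
    obtain ⟨L₁, hL₁, hLe⟩ := hδ'
    have he : α * (δ * x) * α⁻¹ = I ((⟨L₁, hL₁.1⟩ * L : linSim _).1 * plusPhi k σ) := by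
      rw [Subgroup.coe_mul, mul_assoc L₁, map_mul, hLe, ← hα]; group
    have hp0 : (I (L.1 * plusPhi k σ)) ^ r = 1 := by
      rw [← hα, ← MulAut.conj_apply, ← map_pow, ← hxr, pow_orderOf_eq_one, map_one]
    have hp1 : (I ((⟨L₁, hL₁.1⟩ * L : linSim _).1 * plusPhi k σ)) ^ r = 1 := by
      rw [← he, ← MulAut.conj_apply, ← map_pow, ← ho, pow_orderOf_eq_one, map_one]
    have hiff : IsProper (k + 1) (⟨L₁, hL₁.1⟩ * L : linSim _) ↔ IsProper (k + 1) L :=
      (isProper_mul_iff hE _ _).trans ⟨fun h => h.1 hL₁.2, fun h => iff_of_true hL₁.2 h⟩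
    obtain ⟨β₀, hβ₀, h₀⟩ := plus_lang hk hr hσ L hp0
    obtain ⟨β₁, hβ₁, h₁⟩ := plus_lang hk hr hσ _ hp1
    rw [← isConjUnder_map_iff (a := α), hα, he]
    refine ⟨β₁ * β₀⁻¹, mul_mem hβ₁ (inv_mem hβ₀), ?_⟩
    rcases h₀ with ⟨p₀, e₀⟩ | ⟨p₀, -, e₀⟩ <;> rcases h₁ with ⟨p₁, e₁⟩ | ⟨p₁, -, e₁⟩
    · rw [e₁, e₀]; group
    · exact absurd (hiff.2 p₀) p₁
    · exact absurd (hiff.1 p₁) p₀
    · rw [e₁, e₀]; group
  · rintro ⟨h, -, he⟩
    rw [he, ← MulAut.conj_apply, MulEquiv.orderOf_eq, hxr]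

end Cfsg.Agent.H4
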